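import Mathlib
import Cfsg.Agent.Lib.Helper91.SO2Wrap
import Cfsg.Agent.Lib.Helper91.SSBrauer
import Cfsg.Agent.Lib.Helper91.SSTop
import Cfsg.Agent.Lib.Helper91.SSK1

/-!
# Numerical form of the principal `p`-block for a Sylow subgroup of prime order with `C(P) ≠ P`

For a simple group `G` of order `N`, a Sylow `p`-subgroup `P` of order `p`, and a prime `q ≠ p`
dividing `|C(P)|`, helper91's `brauer_chars` / `brauer_top` together with rule K1 give purely
numerical data (`block_low`, `block_top`): degrees `f i` and values `a i` of the non-exceptional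
characters with `OkC N p (f i) (a i)`, and (if `[N(P):C(P)] < p - 1`) the degree `f0` of the
exceptional characters with `OkE N p f0`, subject to Brauer's two equations.
`sum_counts_list` rewrites the sums over the characters as sums over a list of candidates.
-/

set_option autoImplicit false

namespace Cfsg.Agent.Lib.Helper97.SOB

open Cfsg Cfsg.Agent.Lib.Helper17 Cfsg.Agent.Lib.Helper91.SS

variable {G : Type*} [Group G] [Finite G]

/-- numerical data of a non-exceptional character of the principal block: degree `f`, value `a`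
(rule K1 included) -/
def OkC (N p f : ℕ) (a : ℤ) : Prop :=
  a ≠ 0 ∧ f ∣ N ∧ f ≠ 1 ∧ f ^ 2 ≤ N ∧ (f : ℤ) % (p : ℤ) = a % (p : ℤ) ∧ 2 * p ≤ f ∧
    (2 * (p : ℤ)) ≤ (f : ℤ) + ((p : ℤ) - 1) * a

instance (N p f : ℕ) (a : ℤ) : Decidable (OkC N p f a) := by
  unfold OkC
  infer_instance

/-- numerical data of the exceptional characters: degree `f` (rule K1 included) -/
def OkE (N p f : ℕ) : Prop := f ∣ N ∧ f ≠ 1 ∧ f ^ 2 ≤ N ∧ 2 * p ≤ f

instance (N p f : ℕ) : Decidable (OkE N p f) := by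
  unfold OkE
  infer_instance

theorem exists_central_prime (q : ℕ) (P : Subgroup G) (hq : q.Prime)
    (hqC : q ∣ Nat.card (Subgroup.centralizer (P : Set G))) :
    ∃ c : G, c ∈ Subgroup.centralizer (P : Set G) ∧ orderOf c = q := by
  haveI : Fact q.Prime := ⟨hq⟩
  obtain ⟨c', hc'⟩ := exists_prime_orderOf_dvd_card'
    (G := Subgroup.centralizer (P : Set G)) q hqC
  exact ⟨(c' : G), c'.2, by rw [Subgroup.orderOf_coe]; exact hc'⟩

theorem okC_of [IsSimpleGroup G] (hGn : ¬ (Nat.card G).Prime) (p : ℕ) [Fact p.Prime]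
    (P : Subgroup G) (hP : Nat.card P = p) (χ : IrrCharacter G)
    (hχ1 : (χ : G → ℂ) 1 ≠ 1) (a : ℤ) (ha : a ≠ 0)
    (hval : ∀ z y : G, IsPPart p z y → y ∈ P → y ≠ 1 → (χ : G → ℂ) z = (a : ℂ))
    (c : G) (hc : c ∈ Subgroup.centralizer (P : Set G)) (q : ℕ) (hq : q.Prime) (hqp : q ≠ p)
    (hcq : orderOf c = q) :
    (χ : G → ℂ) 1 = (Cfsg.charDegree (χ : G → ℂ) : ℂ) ∧
      OkC (Nat.card G) p (Cfsg.charDegree (χ : G → ℂ)) a := by
  have hpp : p.Prime := Fact.out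
  have hirr := χ.2
  obtain ⟨hxd, hxpos, hxdvd⟩ := Cfsg.Agent.Lib.Helper79.irr_charDegree hirr
  have hmod := Cfsg.Agent.Lib.Helper90.BrauerDeg.degree_modEq hirr p P hP a
      (fun y hy hy1 => hval y y (isPPart_self hpp _ hP y hy hy1) hy hy1)
  obtain ⟨n, T, hT, hn, heq⟩ := k1_const hGn p P hP χ hχ1 a hval c hc q hq hqp hcq
  have hT' : (2 : ℤ) ≤ (T : ℤ) := by exact_mod_cast hT
  have hn0 : (0 : ℤ) ≤ (n : ℤ) := Int.natCast_nonneg n
  have hp0 : (0 : ℤ) ≤ (p : ℤ) := Int.natCast_nonneg p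
  refine ⟨hxd, ha, hxdvd, ?_, Cfsg.Agent.Lib.Helper80.charDegree_sq_le_card hirr, hmod, ?_, ?_⟩
  · intro h
    apply hχ1
    rw [hxd, h]
    norm_num
  · have h1 : (2 * (p : ℤ)) ≤ (Cfsg.charDegree (χ : G → ℂ) : ℤ) := by nlinarith
    exact_mod_cast h1
  · nlinarith

theorem okE_of [IsSimpleGroup G] (hGn : ¬ (Nat.card G).Prime) (p : ℕ) [Fact p.Prime]
    (P : Subgroup G) (hP : Nat.card P = p) (η : IrrCharacter G)
    (hη1 : (η : G → ℂ) 1 ≠ 1)
    (hval : ∀ z y : G, IsPPart p z y → y ∈ P → y ≠ 1 → (η : G → ℂ) z = (η : G → ℂ) y)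
    (c : G) (hc : c ∈ Subgroup.centralizer (P : Set G)) (q : ℕ) (hq : q.Prime) (hqp : q ≠ p)
    (hcq : orderOf c = q) :
    (η : G → ℂ) 1 = (Cfsg.charDegree (η : G → ℂ) : ℂ) ∧
      OkE (Nat.card G) p (Cfsg.charDegree (η : G → ℂ)) := by
  have hirr := η.2
  obtain ⟨hxd, hxpos, hxdvd⟩ := Cfsg.Agent.Lib.Helper79.irr_charDegree hirr
  refine ⟨hxd, hxdvd, ?_, Cfsg.Agent.Lib.Helper80.charDegree_sq_le_card hirr,
    k1_exc hGn p P hP η hη1 hval c hc q hq hqp hcq⟩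
  intro h
  apply hη1
  rw [hxd, h]
  norm_num

/-- The principal block when `[N(P) : C(P)] = r < p - 1` and `q ∣ |C(P)|`: numerical form. -/
theorem block_low [IsSimpleGroup G] (N p r q : ℕ) [Fact p.Prime] (hG : Nat.card G = N)
    (hN : ¬ N.Prime) (P : Sylow p G) (hP : Nat.card (P : Subgroup G) = p) (hr1 : r + 1 < p)
    (hr : (Subgroup.centralizer ((P : Subgroup G) : Set G)).relIndex
      (Subgroup.normalizer ((P : Subgroup G) : Set G)) = r)
    (hq : q.Prime) (hqp : q ≠ p)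
    (hqC : q ∣ Nat.card (Subgroup.centralizer ((P : Subgroup G) : Set G))) :
    ∃ (k : ℕ) (f : Fin k → ℕ) (a : Fin k → ℤ) (f0 : ℕ) (d δ : ℤ), k + 1 ≤ r ∧
      (δ = 1 ∨ δ = -1) ∧ (∀ i, OkC N p (f i) (a i)) ∧ OkE N p f0 ∧
      (d - δ) ^ 2 + ((((p - 1) / r : ℕ) : ℤ) - 1) * d ^ 2 + 1 + ∑ i, a i ^ 2 = (r : ℤ) + 1 ∧
      ((((p - 1) / r : ℕ) : ℤ) * d - δ) * (f0 : ℤ) + 1 + ∑ i, a i * (f i : ℤ) = 0 := by
  have hpp : p.Prime := Fact.out
  have hGn : ¬ (Nat.card G).Prime := by rw [hG]; exact hN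
  obtain ⟨c, hc, hcq⟩ := exists_central_prime q (P : Subgroup G) hq hqC
  obtain ⟨k, χ, a, η, d, δ, hk, hδ, hχ, hη1, hηval, heq, hrel, -, -⟩ :=
    brauer_chars hGn p P hP r hr1 hr
  have hdat : ∀ i, (χ i : G → ℂ) 1 = (Cfsg.charDegree (χ i : G → ℂ) : ℂ) ∧
      OkC (Nat.card G) p (Cfsg.charDegree (χ i : G → ℂ)) (a i) := fun i =>
    okC_of hGn p (P : Subgroup G) hP (χ i) (hχ i).2.1 (a i) (hχ i).1 (hχ i).2.2 c hc q hq hqp hcq
  obtain ⟨hη1', hηE⟩ := okE_of hGn p (P : Subgroup G) hP η hη1 hηval c hc q hq hqp hcq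
  rw [hG] at hηE
  refine ⟨k, fun i => Cfsg.charDegree (χ i : G → ℂ), a, Cfsg.charDegree (η : G → ℂ), d, δ, hk,
    hδ, fun i => by have := (hdat i).2; rw [hG] at this; exact this, hηE, heq, ?_⟩
  have h0 := hrel 1 (by
    rw [orderOf_one]
    exact fun h => hpp.one_lt.ne' (Nat.dvd_one.mp h))
  have h : ((((((p - 1) / r : ℕ) : ℤ) * d - δ) * (Cfsg.charDegree (η : G → ℂ) : ℤ) + 1 +
      ∑ i, a i * (Cfsg.charDegree (χ i : G → ℂ) : ℤ) : ℤ) : ℂ) = 0 := by
    push_cast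
    rw [← h0, hη1']
    congr 1
    exact Finset.sum_congr rfl (fun i _ => by rw [(hdat i).1])
  exact_mod_cast h

/-- The principal block when `[N(P) : C(P)] = p - 1` and `q ∣ |C(P)|`: numerical form. -/
theorem block_top [IsSimpleGroup G] (N p q : ℕ) [Fact p.Prime] (hG : Nat.card G = N)
    (hN : ¬ N.Prime) (P : Sylow p G) (hP : Nat.card (P : Subgroup G) = p)
    (hr : (Subgroup.centralizer ((P : Subgroup G) : Set G)).relIndex
      (Subgroup.normalizer ((P : Subgroup G) : Set G)) = p - 1)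
    (hq : q.Prime) (hqp : q ≠ p)
    (hqC : q ∣ Nat.card (Subgroup.centralizer ((P : Subgroup G) : Set G))) :
    ∃ (k : ℕ) (f : Fin k → ℕ) (a : Fin k → ℤ), (∀ i, OkC N p (f i) (a i)) ∧
      1 + ∑ i, a i ^ 2 = (p : ℤ) ∧ 1 + ∑ i, a i * (f i : ℤ) = 0 := by
  have hpp : p.Prime := Fact.out
  have hGn : ¬ (Nat.card G).Prime := by rw [hG]; exact hN
  obtain ⟨c, hc, hcq⟩ := exists_central_prime q (P : Subgroup G) hq hqC
  obtain ⟨k, χ, a, -, hχ, heq, hrel, -⟩ := brauer_top hGn p P hP hr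
  have hdat : ∀ i, (χ i : G → ℂ) 1 = (Cfsg.charDegree (χ i : G → ℂ) : ℂ) ∧
      OkC (Nat.card G) p (Cfsg.charDegree (χ i : G → ℂ)) (a i) := fun i =>
    okC_of hGn p (P : Subgroup G) hP (χ i) (hχ i).2.1 (a i) (hχ i).1 (hχ i).2.2 c hc q hq hqp hcq
  refine ⟨k, fun i => Cfsg.charDegree (χ i : G → ℂ), a,
    fun i => by have := (hdat i).2; rw [hG] at this; exact this, heq, ?_⟩
  have h0 := hrel 1 (by
    rw [orderOf_one]
    exact fun h => hpp.one_lt.ne' (Nat.dvd_one.mp h))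
  have h : ((1 + ∑ i, a i * (Cfsg.charDegree (χ i : G → ℂ) : ℤ) : ℤ) : ℂ) = 0 := by
    push_cast
    rw [← h0]
    congr 1
    exact Finset.sum_congr rfl (fun i _ => by rw [(hdat i).1])
  exact_mod_cast h

/-- a sum over the characters as a sum over the candidates, with multiplicities -/
theorem sum_counts {k : ℕ} {α : Type*} [DecidableEq α] (x : Fin k → α) (C : Finset α)
    (hx : ∀ i, x i ∈ C) (g : α → ℤ) :
    ∑ i, g (x i) = ∑ c ∈ C, ((Finset.univ.filter (fun i => x i = c)).card : ℤ) * g c := by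
  rw [← Finset.sum_fiberwise_of_maps_to (s := Finset.univ) (t := C) (g := x)
    (fun i _ => hx i)]
  apply Finset.sum_congr rfl
  intro c _
  rw [Finset.sum_congr rfl (fun i hi => by rw [(Finset.mem_filter.mp hi).2]),
    Finset.sum_const, nsmul_eq_mul]

theorem sum_counts_list {k : ℕ} {α : Type*} [DecidableEq α] (x : Fin k → α) (C : List α)
    (hC : C.Nodup) (hx : ∀ i, x i ∈ C) (g : α → ℤ) :
    ∑ i, g (x i) =
      (C.map (fun c => ((Finset.univ.filter (fun i => x i = c)).card : ℤ) * g c)).sum := by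
  rw [← List.sum_toFinset _ hC]
  exact sum_counts x C.toFinset (fun i => List.mem_toFinset.mpr (hx i)) g

/-- multiplicities `n c` of the candidates `c ∈ C` among the `x i` -/
theorem exists_counts {k : ℕ} {α : Type*} [DecidableEq α] (x : Fin k → α) (C : List α)
    (hC : C.Nodup) (hx : ∀ i, x i ∈ C) :
    ∃ n : α → ℕ, ∀ g : α → ℤ, ∑ i, g (x i) = (C.map (fun c => (n c : ℤ) * g c)).sum :=
  ⟨fun c => (Finset.univ.filter (fun i => x i = c)).card, fun g => sum_counts_list x C hC hx g⟩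

/-- `badB C k s l`: some sequence of `k` candidates `(f, a)` from `C` has `∑ a ^ 2 = s` and
`∑ a * f = l` -/
def badB (C : List (ℕ × ℤ)) : ℕ → ℤ → ℤ → Bool
  | 0, s, l => decide (s = 0) && decide (l = 0)
  | k + 1, s, l => C.any (fun c => badB C k (s - c.2 ^ 2) (l - c.2 * (c.1 : ℤ)))

theorem badB_of {C : List (ℕ × ℤ)} : ∀ (k : ℕ) (x : Fin k → ℕ × ℤ), (∀ i, x i ∈ C) →
    badB C k (∑ i, (x i).2 ^ 2) (∑ i, (x i).2 * ((x i).1 : ℤ)) = true
  | 0, x, _ => by simp [badB]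
  | k + 1, x, hx => by
      rw [badB, List.any_eq_true]
      refine ⟨x 0, hx 0, ?_⟩
      have ih := badB_of k (fun i => x i.succ) (fun i => hx i.succ)
      rw [Fin.sum_univ_succ, Fin.sum_univ_succ, add_sub_cancel_left, add_sub_cancel_left]
      exact ih

theorem card_le_sum_sq {k : ℕ} (a : Fin k → ℤ) (ha : ∀ i, a i ≠ 0) : (k : ℤ) ≤ ∑ i, a i ^ 2 := by
  have h1 : ∑ _i : Fin k, (1 : ℤ) ≤ ∑ i, a i ^ 2 := by
    apply Finset.sum_le_sum
    intro i _
    have := ha i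
    have h2 : 0 < a i ^ 2 := by positivity
    omega
  simpa using h1

theorem sq_le_of_sum_sq_le {k : ℕ} (a : Fin k → ℤ) (M : ℤ) (h : ∑ j, a j ^ 2 ≤ M) (i : Fin k) :
    a i ^ 2 ≤ M :=
  (Finset.single_le_sum (f := fun j => a j ^ 2) (fun j _ => sq_nonneg (a j))
    (Finset.mem_univ i)).trans h

end Cfsg.Agent.Lib.Helper97.SOB
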